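import Mathlib
import Cfsg.Agent.Lib.Helper44.FW.Defs

/-!
# FW (S3211), package [CNTEQ]: a swapping element gives equally many square roots
-/

set_option autoImplicit false

namespace Cfsg.Agent.Lib.Helper73.FW

open Cfsg.Agent.Lib.Helper44.FW

universe u

/-- [CNTEQ] -/
theorem pkgCntEq : PkgCntEq.{u} := by
  intro G _ j t₀ g h1 h2
  have h3 : g⁻¹ * j * g = t₀ := by rw [← h2]; group
  have h4 : g⁻¹ * t₀ * g = j := by rw [← h1]; group
  refine Nat.card_congr ((MulAut.conj g).toEquiv.subtypeEquiv ?_)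
  intro r
  show (r * j = j * r ∧ r * t₀ = t₀ * r ∧ r ^ 2 = j) ↔
    (g * r * g⁻¹ * j = j * (g * r * g⁻¹) ∧ g * r * g⁻¹ * t₀ = t₀ * (g * r * g⁻¹) ∧
      (g * r * g⁻¹) ^ 2 = t₀)
  constructor
  · rintro ⟨a, b, c⟩
    refine ⟨?_, ?_, ?_⟩
    · calc g * r * g⁻¹ * j = g * (r * (g⁻¹ * j * g)) * g⁻¹ := by group
        _ = g * (r * t₀) * g⁻¹ := by rw [h3]
        _ = g * (t₀ * r) * g⁻¹ := by rw [b]
        _ = g * ((g⁻¹ * j * g) * r) * g⁻¹ := by rw [h3]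
        _ = j * (g * r * g⁻¹) := by group
    · calc g * r * g⁻¹ * t₀ = g * (r * (g⁻¹ * t₀ * g)) * g⁻¹ := by group
        _ = g * (r * j) * g⁻¹ := by rw [h4]
        _ = g * (j * r) * g⁻¹ := by rw [a]
        _ = g * ((g⁻¹ * t₀ * g) * r) * g⁻¹ := by rw [h4]
        _ = t₀ * (g * r * g⁻¹) := by group
    · calc (g * r * g⁻¹) ^ 2 = g * r ^ 2 * g⁻¹ := by rw [pow_two, pow_two]; group
        _ = t₀ := by rw [c, h1]
  · rintro ⟨a, b, c⟩
    refine ⟨?_, ?_, ?_⟩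
    · have b' : g * r * g⁻¹ * (g * j * g⁻¹) = g * j * g⁻¹ * (g * r * g⁻¹) := by
        rw [h1]; exact b
      calc r * j = g⁻¹ * (g * r * g⁻¹ * (g * j * g⁻¹)) * g := by group
        _ = g⁻¹ * (g * j * g⁻¹ * (g * r * g⁻¹)) * g := by rw [b']
        _ = j * r := by group
    · have a' : g * r * g⁻¹ * (g * t₀ * g⁻¹) = g * t₀ * g⁻¹ * (g * r * g⁻¹) := by
        rw [h2]; exact a
      calc r * t₀ = g⁻¹ * (g * r * g⁻¹ * (g * t₀ * g⁻¹)) * g := by group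
        _ = g⁻¹ * (g * t₀ * g⁻¹ * (g * r * g⁻¹)) * g := by rw [a']
        _ = t₀ * r := by group
    · calc r ^ 2 = g⁻¹ * (g * r * g⁻¹) ^ 2 * g := by rw [pow_two, pow_two]; group
        _ = g⁻¹ * t₀ * g := by rw [c]
        _ = j := h4

end Cfsg.Agent.Lib.Helper73.FW
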